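/-
Recognition of `PGU₃(q)`, `q` even, from the centraliser of an involution.
-/
import Cfsg.Agent.Bender.PU1
import Cfsg.Agent.Bender.App
import Cfsg.Agent.Bender.Final
import Cfsg.Agent.FusB.R2b
set_option autoImplicit false
set_option linter.unusedSectionVars false

namespace CF.Bender.PU
open MulAction Subgroup Cfsg CF.Suz CF.BG CF.Geom

universe u
variable {G Ω : Type*} [Group G] [MulAction G Ω] {a : Ω} {t : G} {Q : Subgroup G}
  {E : Type*} [Field E] [StarRing E]

/-- change of the field -/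
def utMap {F : Type*} [Field F] [StarRing F] (φ : F ≃+* E) (hφ : ∀ x, φ (star x) = star (φ x)) :
    UT F ≃* UT E where
  toFun x := ⟨φ x.e, φ x.y, by rw [← hφ, ← hφ, ← map_add, ← map_mul, x.h]⟩
  invFun x := ⟨φ.symm x.e, φ.symm x.y, φ.injective (by simp [hφ, x.h])⟩
  left_inv x := by ext <;> simp
  right_inv x := by ext <;> simp
  map_mul' x y := by ext <;> simp [hφ]

/-- change of the field -/
def mcMap {F : Type*} [Field F] [StarRing F] (φ : F ≃+* E) (hφ : ∀ x, φ (star x) = star (φ x))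
    (M : MC E a t Q) : MC F a t Q where
  u := M.u.comp (utMap φ hφ).toMonoidHom
  inj := M.inj.comp (utMap φ hφ).injective
  mem x := M.mem _
  surj q hq := by
    obtain ⟨x, rfl⟩ := M.surj q hq
    exact ⟨(utMap φ hφ).symm x, by simp⟩
  flip x hx := (M.flip (utMap φ hφ x) (by simpa using hx)).trans (by
    rw [show (utMap φ hφ x).flip = utMap φ hφ x.flip by ext <;> simp [utMap, UT.flip]]
    rfl)

section
variable [CharP E 2] (M : MC E a t Q) (hS : IsRankOneSetup G Ω a t Q)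
  (he : ∀ ε : E, ∃ x : UT E, x.e = ε)
include hS he

theorem semi {v : G} (hv : v ∈ DD a t) (hz : ∀ x ∈ Q, x * x = 1 → x * v = v * x) :
    ∃ c : E, star c * c = 1 ∧ ((∀ x y, v * M.u x * v⁻¹ = M.u y → y.e = c * x.e) ∨
      ∀ x y, v * M.u x * v⁻¹ = M.u y → y.e = c * star x.e) := by
  have two : (2 : E) = 0 := CharTwo.two_eq_zero
  choose α hα using fun x => M.surj _ (conjQ hS hv.1 (M.mem x))
  have mu : ∀ x y, α (x * y) = α x * α y := fun x y => M.inj (by
    rw [map_mul, hα, hα, hα, map_mul]; group)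
  have N : ∀ x, star (α x).e * (α x).e = star x.e * x.e := fun x => by
    have h1 : α (x * x) = x * x := M.inj (by
      rw [hα, ← hz _ (M.mem _) (by rw [← map_mul, sq_iff.2 (by simp [CharTwo.add_self_eq_zero]),
        map_one]), mul_inv_cancel_right])
    simpa [CharTwo.add_self_eq_zero] using congrArg UT.y ((mu x x).symm.trans h1)
  obtain ⟨x₁, h₁⟩ := he 1
  have c1 : star (α x₁).e * (α x₁).e = 1 := by simpa [h₁] using N x₁
  have k : ∀ x, (α x).e = (α x₁).e * x.e ∨ (α x).e = (α x₁).e * star x.e := fun x => by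
    have h1 := N (x₁ * x)
    have h2 := N x
    simp only [mu, UT.mul_e, star_add, h₁, star_one] at h1
    have h3 : ((α x).e - (α x₁).e * x.e) * ((α x).e - (α x₁).e * star x.e) = 0 := by grind
    simpa only [mul_eq_zero, sub_eq_zero] using h3
  refine ⟨_, c1, ?_⟩
  have k2 : ∀ {x y}, v * M.u x * v⁻¹ = M.u y → y = α x := fun h => M.inj (h.symm.trans (hα _).symm)
  by_contra n
  push Not at n
  obtain ⟨⟨x, _, hx, n1⟩, y, _, hy, n2⟩ := n
  rw [k2 hx] at n1
  rw [k2 hy] at n2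
  have p1 := (k x).resolve_left n1
  have p2 := (k y).resolve_right n2
  have p3 := k (x * y)
  simp only [mu, UT.mul_e, star_add] at p3
  rcases p3 with p3 | p3
  · exact n1 (by linear_combination p3 - p2)
  · exact n2 (by linear_combination p3 - p1)

theorem scal {d : G} (hd : d ∈ DD a t) (ht : t * d = d * t)
    (hz : ∀ x ∈ Q, x * x = 1 → x * d = d * x) :
    ∃ c : Mu E, ∀ x, d * M.u x * d⁻¹ = M.u ((c : Eˣ) • x) := by
  obtain ⟨m, hm⟩ := exists_sqrt (D_odd hS hd)
  have hv := pow_mem hd m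
  obtain ⟨c, h1, h2⟩ : ∃ c : E, star c * c = 1 ∧ ∀ x y, d * M.u x * d⁻¹ = M.u y → y.e = c * x.e := by
    have k : ∀ x y, d * M.u x * d⁻¹ = M.u y → ∃ z, d ^ m * M.u x * (d ^ m)⁻¹ = M.u z ∧
        d ^ m * M.u z * (d ^ m)⁻¹ = M.u y := fun x y h => by
      obtain ⟨z, e⟩ := M.surj _ (conjQ hS hv.1 (M.mem x))
      refine ⟨z, e.symm, ?_⟩
      rw [e, ← h]
      generalize d ^ m = v at hm
      rw [← hm]; group
    obtain ⟨c, h1, h2 | h2⟩ := semi M hS he hv fun x hx h => (Commute.pow_right (hz x hx h) m).eq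
    · refine ⟨c * c, by rw [star_mul]; linear_combination (star c * c + 1) * h1, fun x y h => ?_⟩
      obtain ⟨z, e1, e2⟩ := k x y h
      rw [h2 _ _ e2, h2 _ _ e1, mul_assoc]
    · refine ⟨1, by simp, fun x y h => ?_⟩
      obtain ⟨z, e1, e2⟩ := k x y h
      rw [h2 _ _ e2, h2 _ _ e1, star_mul, star_star]
      linear_combination x.e * h1
  refine ⟨Mu.mk' c h1, fun x => ?_⟩
  obtain ⟨y, e⟩ := M.surj _ (conjQ hS hd.1 (M.mem x))
  rw [← e]
  have h3 := h2 x y e.symm
  by_cases h0 : x.e = 0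
  · rw [e, ← hz _ (M.mem x) (by rw [← map_mul, sq_iff.2 h0, map_one]), mul_inv_cancel_right]
    congr 1
    ext <;> simp [h0, h1]
  have c0 : c ≠ 0 := right_ne_zero_of_mul_eq_one h1
  have x1 : x ≠ 1 := fun e => h0 (by simp [e])
  have y1 : y ≠ 1 := fun e => mul_ne_zero c0 h0 (by simp [← h3, e])
  obtain ⟨z, e'⟩ := M.surj _ (conjQ hS hd.1 (M.mem x.flip))
  have h4 : z = y.flip := M.inj (Q_inj hS (M.mem _) (M.mem _) (ta_ne hS) (by
    rw [← M.flip y y1, e, e', ← D_smul hS hd, ← D_smul hS hd, ← M.flip x x1, ← mul_smul d, ← ht,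
      mul_smul]))
  have h5 := h2 _ _ e'.symm
  have x2 : x.y ≠ 0 := fun e => x1 (UT.eq_one e)
  have y2 : y.y ≠ 0 := fun e => y1 (UT.eq_one e)
  simp only [h4, UT.flip, h3] at h5
  congr 1
  ext
  · simp [h3]
  · simp only [UT.smul_y, Mu.mk'_val, h1, one_mul]
    field_simp at h5
    exact h5.symm

omit he in
theorem iso {V : Type*} [Finite E] [Finite G] [AddCommGroup V] [Module E V] [FiniteDimensional E V]
    {B : V →ₛₗ[starRingEnd E] V →ₗ[E] E} {e f w : V} (h : Fr B e f w)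
    (gen : uTransSub h.hH = suSub B) [FaithfulSMul G Ω] (h2 : Rank2 G)
    (w1 : ∀ d ∈ DD a t, t * d = d * t → ∃ c : Mu E, ∀ x, d * M.u x * d⁻¹ = M.u ((c : Eˣ) • x))
    (w2 : ∀ c : Mu E, ∃ d ∈ DD a t, ∀ x, d * M.u x * d⁻¹ = M.u ((c : Eˣ) • x)) :
    Nonempty (G ≃* UG B ⧸ center (UG B)) := by
  classical
  have hH := h.hH
  have he := h.he
  have hf := h.hf
  have hef := h.hef
  have hfe := hH.flip_one hef
  have hwe := hH.refl h.hew
  have hwf := hH.refl h.hfw
  have two : (2 : E) = 0 := CharTwo.two_eq_zero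
  have neg : ∀ v : V, -v = v := fun v => by
    rw [neg_eq_iff_add_eq_zero, ← two_smul E, two, zero_smul]
  have Ue : ∀ x, (h.U x).1 e = e := fun x => by simpa using h.U_apply x 1 0 0
  have Uf : ∀ x, (h.U x).1 f = x.y • e + (1 : E) • f + x.e • w := fun x => by
    simpa using h.U_apply x 0 1 0
  have hee : B (e + f) (e + f) = 0 := by simp [he, hf, hef, hfe, CharTwo.add_self_eq_zero]
  let T : UG B := uTrans hH hee (s := 1) (by simp [CharTwo.neg_eq])
  have T_apply : ∀ α β γ : E, T.1 (α • e + β • f + γ • w) = β • e + α • f + γ • w := fun α β γ => by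
    simp only [T, uTrans_apply, map_add, map_smul, LinearMap.add_apply, he, hf, hef, hfe, h.hew,
      h.hfw]
    match_scalars <;> grind
  choose x hx using fun p : {p // p ≠ a} => show ∃ x, M.u x • t • a = p from by
    obtain ⟨q, hq, e⟩ := Q_trans hS p.2
    obtain ⟨x, rfl⟩ := M.surj q hq
    exact ⟨x, e⟩
  let v : Ω → V := fun p => if k : p = a then e else (h.U (x ⟨p, k⟩)).1 f
  have va : v a = e := dif_pos rfl
  have vu : ∀ y, v (M.u y • t • a) = (h.U y).1 f := fun y => by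
    have k := smul_ne_a (Q_fix_a hS (M.mem y)) (ta_ne hS)
    rw [show v _ = _ from dif_neg k, M.inj (Q_inj hS (M.mem _) (M.mem _) (ta_ne hS) (hx ⟨_, k⟩))]
  have all : ∀ {P : Ω → Prop}, P a → (∀ y, P (M.u y • t • a)) → ∀ p, P p := fun h1 h2 p => by
    by_cases k : p = a
    exacts [k ▸ h1, (show _ = p from hx ⟨p, k⟩) ▸ h2 _]
  have v0 : ∀ p, v p ≠ 0 := all (fun k => by simp [va.symm.trans k] at hef) fun y k => by
    have := congrArg (B e) k
    simp [vu, Uf, he, hef, h.hew] at this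
  have v1 : ∀ p p' (c : E), v p = c • v p' → p = p' := all (all (fun _ _ => rfl) fun y c k => by
      have h1 := congrArg (B e) k
      have h2 := congrArg (B f) k
      simp [va, vu, Uf, he, hef, h.hew] at h1
      simp [va, hfe, ← h1] at h2) fun y => all (fun c k => by
      have := congrArg (B e) k
      simp [va, vu, Uf, he, hef, h.hew] at this) fun y' c k => by
      have h1 := congrArg (B e) k
      have h2 := congrArg (B f) k
      have h3 := congrArg (B w) k
      simp [vu, Uf, he, hef, h.hew] at h1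
      simp [vu, Uf, hf, hfe, h.hfw, ← h1] at h2
      simp [vu, Uf, h.hw, hwe, hwf, ← h1] at h3
      rw [UT.ext h3 h2]
  have v2 : ∀ z, B z z = 0 → ∃ p, ∃ c : E, z = c • v p := fun z hz => by
    obtain ⟨α, β, γ, rfl⟩ := h.span z
    rw [h.form] at hz
    by_cases k : β = 0
    · refine ⟨a, α, ?_⟩
      simp only [k, star_zero, mul_zero, zero_mul, add_zero, zero_add, mul_one, mul_eq_zero,
        star_eq_zero, or_self] at hz
      simp [k, hz, va]
    have h' : star β ≠ 0 := star_ne_zero.2 k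
    refine ⟨M.u ⟨γ / β, α / β, by simp only [star_div₀]; field_simp; grind⟩ • t • a, β, ?_⟩
    rw [vu, Uf]
    match_scalars <;> field_simp
  obtain ⟨I, hI⟩ : ∃ I : Subgroup (UG B × G), ∀ {g l}, (g, l) ∈ I ↔
      ∀ p, ∃ c : E, g.1 (v p) = c • v (l • p) := ⟨
    { carrier := {z | ∀ p, ∃ c : E, z.1.1 (v p) = c • v (z.2 • p)}
      one_mem' := fun p => ⟨1, by simp⟩
      mul_mem' := fun {z z'} h h' p => by
        obtain ⟨c', e'⟩ := h' p
        obtain ⟨c, e⟩ := h (z'.2 • p)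
        exact ⟨c' * c, by simp [e, e', mul_smul]⟩
      inv_mem' := fun {z} h p => by
        obtain ⟨c, e⟩ := h (z.2⁻¹ • p)
        rw [smul_inv_smul] at e
        have h0 : c ≠ 0 := by rintro rfl; exact v0 _ (by simpa using e)
        refine ⟨c⁻¹, ?_⟩
        rw [← inv_smul_eq_iff₀ h0] at e
        simp [← e] }, Iff.rfl⟩
  have hU : ∀ y, (h.U y, M.u y) ∈ I := fun y => by
    refine hI.2 (all ⟨1, ?_⟩ fun y' => ⟨1, ?_⟩)
    · simp only [va, Ue, Q_fix_a hS (M.mem y), one_smul]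
    · rw [← mul_smul (M.u y), ← map_mul, vu, vu, map_mul, one_smul]
      rfl
  have hgt : (T, t) ∈ I := by
    have h1 : v (t • a) = f := by simpa [Uf] using vu 1
    refine hI.2 (all ⟨1, ?_⟩ fun y => ?_)
    · simpa [va, h1] using T_apply 1 0 0
    by_cases k : y = 1
    · exact ⟨1, by simpa [k, h1, smul_t_t hS, va] using T_apply 0 1 0⟩
    have h0 : y.y ≠ 0 := fun e => k (UT.eq_one e)
    refine ⟨y.y, ?_⟩
    rw [M.flip y k, vu, vu, Uf, Uf, T_apply]
    simp only [UT.flip]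
    match_scalars <;> field_simp
  have hR : ∀ {d c}, d ∈ DD a t → (∀ x, d * M.u x * d⁻¹ = M.u (((c : Mu E) : Eˣ) • x)) →
      (h.R c, d) ∈ I := fun {d c} hd k => by
    refine hI.2 (all ⟨1, ?_⟩ fun y => ⟨1, ?_⟩)
    · simpa [va, show d • a = a from hd.1] using h.R_apply c 1 0 0
    · rw [D_smul hS hd, k, vu, vu, Uf, Uf, h.R_apply]
      simp [Mu.h c]
  have s1 : LL t Q ≤ I.map (MonoidHom.snd _ G) := LL_le (fun q hq => by
    obtain ⟨y, rfl⟩ := M.surj q hq
    exact mem_map_of_mem _ (hU y)) (mem_map_of_mem _ hgt)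
  have s2 : ∀ l, ∃ g, (g, l) ∈ I := fun l => by
    obtain ⟨z, hz, rfl⟩ := (eq_top_of hS (Q_le_LL.trans s1) (fun d hd => by
      obtain ⟨v, hv, k1, k, hk, rfl⟩ := D_decomp hS hd
      obtain ⟨c, k2⟩ := w1 v hv k1
      exact mul_mem (mem_map_of_mem _ (hR hv k2)) (s1 (K_mem_LL hS h2 hk))) (s1 t_mem_LL)).ge
      (mem_top l)
    exact ⟨z.1, hz⟩
  have h1 : Function.Surjective (Prod.fst ∘ I.subtype) := fun g => by
    have k1 : uTransSub hH ≤ I.map (MonoidHom.fst _ _) := (closure_le _).2 (by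
      rintro _ ⟨z, s, hz, hs, rfl⟩
      obtain ⟨p, c, rfl⟩ := v2 z hz
      obtain ⟨l, rfl⟩ := exists_one hS p
      obtain ⟨g, hg⟩ := s2 l
      obtain ⟨c', e'⟩ := hI.1 hg a
      have h0 : c' ≠ 0 := by rintro rfl; exact v0 _ (by simpa using e')
      rw [va, ← inv_smul_eq_iff₀ h0] at e'
      have h5 := hU ⟨0, star (c / c') * (c / c') * s, by
        rw [star_mul, star_mul, star_star, show star s = -s from hs]; ring⟩
      refine ⟨_, I.mul_mem (I.mul_mem hg h5) (I.inv_mem hg), ?_⟩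
      show g * h.U _ * g⁻¹ = _
      rw [Fr.U, MonoidHom.mk'_apply, conj_uEich]
      refine Subtype.ext (LinearEquiv.ext fun z => ?_)
      simp only [uEich_apply, uTrans_apply, ← e', LinearMap.map_smulₛₗ, LinearMap.smul_apply,
        sub_eq_add_neg, neg, zero_smul, map_zero, LinearMap.zero_apply, starRingEnd_apply,
        star_div₀, star_inv₀, smul_eq_mul]
      match_scalars <;> ring)
    let c := Mu.mk' _ (det_UG_norm h.hB g)
    obtain ⟨d, hd, k2⟩ := w2 c
    have k3 : g * (h.R c)⁻¹ ∈ suSub B := by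
      have k4 : LinearMap.det ((g * (h.R c)⁻¹ : UG B).1 : V →ₗ[E] V) *
          LinearMap.det ((h.R c).1 : V →ₗ[E] V) = LinearMap.det (g.1 : V →ₗ[E] V) := by
        rw [← map_mul, ← LinearEquiv.coe_toLinearMap_mul, ← Subgroup.coe_mul, inv_mul_cancel_right]
      rw [h.det_R] at k4
      exact mem_suSub.2 (mul_right_cancel₀ (c : Eˣ).ne_zero (k4.trans (one_mul _).symm))
    obtain ⟨z, hz, e⟩ := mul_mem (k1 (gen.ge k3)) (mem_map_of_mem _ (hR hd k2))
    exact ⟨⟨z, hz⟩, e.trans (inv_mul_cancel_right _ _)⟩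
  have h2 : Function.Surjective (Prod.snd ∘ I.subtype) := fun l =>
    (s2 l).elim fun g h => ⟨⟨(g, l), h⟩, rfl⟩
  obtain ⟨i, -⟩ := goursat_surjective h1 h2
  have := normal_goursatFst h1
  have := normal_goursatSnd h2
  have e1 : I.goursatFst = center (UG B) := Subgroup.ext fun g => by
    rw [mem_goursatFst]
    constructor
    · intro k
      obtain ⟨c, hc⟩ := (hH.wittPair h.hB).scalar_of_fix_points (by simpa using he)
        (by simpa using hf) hef (Or.inl h.h3) g fun z hz => by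
          obtain ⟨p, c, rfl⟩ := v2 z (by simpa using hz)
          obtain ⟨c', e'⟩ := hI.1 k p
          exact Submodule.mem_span_singleton.2 ⟨c', by
            rw [map_smul, show g.1 (v p) = _ from e', smul_comm]; simp⟩
      exact mem_center_of_scalar (ρ := MonoidHom.id _) (fun _ _ k => k) hc
    · intro k
      obtain ⟨c, hc⟩ := center_su_scalar hH h.hB (by have := h.h3; omega) (ρ := MonoidHom.id _)
        (fun g _ => ⟨g, rfl⟩) g k
      exact hI.2 fun p => ⟨c, by simpa using hc _⟩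
  have e2 : I.goursatSnd = ⊥ := eq_bot_iff.2 fun l hl =>
    (eq_of_smul_eq_smul (α := Ω) fun p => by
      obtain ⟨c, h⟩ := hI.1 ((mem_goursatSnd (I := I)).1 hl) p
      simpa using (v1 _ _ c (by simpa using h)).symm)
  exact ⟨(((QuotientGroup.quotientMulEquivOfEq e1.symm).trans i).trans
    ((QuotientGroup.quotientMulEquivOfEq e2).trans QuotientGroup.quotientBot)).symm⟩

end

section
variable {G : Type u} [Group G] [Finite G] {E : Type*} [Field E] [StarRing E] [CharP E 2]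
  (hC : ∀ x : G, Iv x → Nonempty (CM E (𝐂₁ x)))
include hC

theorem cen {x y z : G} (hx : Iv x) (hz : z * z = 1) (h1 : z * x = x * z) (h2 : y * x = x * y) :
    z * y = y * z :=
  congrArg Subtype.val ((hC x hx).some.cen (z := ⟨z, mem_cent1.2 h1⟩) (Subtype.ext hz)
    ⟨y, mem_cent1.2 h2⟩)

theorem syl {S : Sylow 2 G} {x : G} (hx : Iv x) (hS : x ∈ (S : Subgroup G)) (M : CM E (𝐂₁ x)) :
    M.u.range.map (𝐂₁ x).subtype = S := by
  have p : PiGrp {2} (S : Subgroup G) := piGrp_of_isPGroup Nat.prime_two S.isPGroup'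
  obtain ⟨z, hz, iz⟩ := exists_iv (X := 𝐙 (S : Subgroup G)) fun o =>
    p.center_ne_bot (ne_bot_of_mem hS hx.ne) ((p.le inf_le_left).eq_bot (pi_of_odd o))
  refine S.is_maximal' (M.pg.map _) fun s hs => ?_
  obtain ⟨k, hk⟩ := S.isPGroup' ⟨s, hs⟩
  exact ⟨⟨s, mem_cent1.2 (cen hC iz hx.sq (hz.2 x hS) (hz.2 s hs)).symm⟩,
    M.two (k := k) (Subtype.ext (by simpa using congrArg Subtype.val hk)), rfl⟩

theorem se (S : Sylow 2 G) (he : Even (Nat.card G)) (hS : ¬ (S : Subgroup G).Normal) :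
    IsStronglyEmbedded (𝐍 (S : Subgroup G)) := by
  have k : ∀ {x}, x ∈ 𝐍 (S : Subgroup G) → Iv x → x ∈ (S : Subgroup G) := fun {x} h i => by
    have : IsPGroup 2 (zpowers x) := .of_card (n := 1) i.card
    exact (S.is_maximal' (IsPGroup.to_sup_of_normal_left' S.isPGroup' this (zpowers_le.2 h))
      le_sup_left).le (mem_sup_right (mem_zpowers x))
  refine CF.Invol.se_iff.2 ⟨fun e => hS (normalizer_eq_top_iff.1 e), ?_, fun x h o g hg => ?_⟩
  · refine Even.trans_dvd ?_ (card_dvd_of_le le_normalizer)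
    rw [← (S : Subgroup G).card_mul_index, Nat.even_mul] at he
    exact he.resolve_right fun e => S.not_dvd_index e.two_dvd
  · have i := iv_iff.2 o
    obtain ⟨M⟩ := hC x i
    have h1 : x ∈ ((g⁻¹ • S : Sylow 2 G) : Subgroup G) := by
      rw [Sylow.coe_subgroup_smul, mem_pointwise_smul_iff_inv_smul_mem]
      simpa using k hg (i.conj g)
    have h2 : g⁻¹ • S = S := Sylow.ext ((syl hC i h1 M).symm.trans (syl hC i (k h i) M))
    simpa using inv_mem (Sylow.smul_eq_iff_mem_normalizer.1 h2)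

theorem main [Fintype E] {q : ℕ} (hq : 2 < q) (hE : Fintype.card E = q ^ 2)
    (hs : ∀ x : E, star x = x ^ q) (he : Even (Nat.card G)) (hS : ∀ S : Sylow 2 G, ¬ (S : Subgroup G).Normal) :
    Nonempty (G ≃* UG (hermSesq (Fin 3) (starRingEnd E)) ⧸ center _) := by
  obtain ⟨c₀, c1, c2, c3⟩ := exists_fixed_ne_zero_ne_one hE hq.ne'
  have ex := UT.exists_e hE hs
  have S : Sylow 2 G := default
  have h := se hC S he (hS S)
  obtain ⟨x, -, ix⟩ := exists_iv (X := (⊤ : Subgroup G)) (by rwa [card_top, Nat.not_odd_iff_even])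
  obtain ⟨M⟩ := hC x ix
  have r : Rank2 G := by
    let z : UT E := ⟨0, c₀, by simp [hs, c1, CharTwo.add_self_eq_zero]⟩
    have k : ∀ {y y'}, (M.u y : G) = M.u y' → y.y = y'.y := fun e =>
      congrArg UT.y (M.u_inj (Subtype.ext e))
    refine ⟨M.u z, M.u (Fr.z1 E), fun e => c2 (k (y' := 1) (by simpa using e)),
      fun e => one_ne_zero (k (y' := 1) (by simpa using e)), fun e => c3 (k e), ?_, ?_, ?_⟩ <;>
      simp only [← Subgroup.coe_mul, ← map_mul]
    · rw [sq_iff.2 rfl]; simp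
    · rw [sq_iff.2 rfl]; simp
    · congr 2; ext <;> simp [z, Fr.z1, add_comm]
  have hO : oddCore G = ⊥ := by
    obtain ⟨y, hy, i⟩ := exists_iv (X := (S : Subgroup G)) (by
      rw [← (S : Subgroup G).card_mul_index, Nat.even_mul] at he
      exact Nat.not_odd_iff_even.2 (he.resolve_right fun e => S.not_dvd_index e.two_dvd))
    have k1 : oddCore G ≤ 𝐂₁ y := fun g hg => mem_cent1.2 ((cent_of_inf_eq_bot (se_oddCore_le h r)
      le_normalizer_of_normal ((pi_of_odd oddCore_odd).inf_eq_bot'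
        (piGrp_of_isPGroup Nat.prime_two S.isPGroup')) hg) y hy).symm
    have k2 := (hC y i).some.odd (ex 1) (N := (oddCore G).subgroupOf (𝐂₁ y)) (by
      rw [Nat.card_congr (subgroupOfEquivOfLe k1).toEquiv]; exact oddCore_odd)
    rwa [subgroupOf_eq_bot, disjoint_iff, inf_eq_left.2 k1] at k2
  obtain ⟨t, Q, hR⟩ := se_setup part2 h hO
  have := se_faithful h hO
  obtain ⟨s, r', st⟩ := exists_str hR
  have is : Iv s := ⟨st.s_ne, st.s_sq⟩
  obtain ⟨T, rfl⟩ := setup_syl hR r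
  obtain ⟨N⟩ := hC s is
  have e1 := syl hC is st.s_mem N
  have ui : Function.Injective ((𝐂₁ s).subtype.comp N.u) := (subtype_injective _).comp N.u_inj
  have e2 : (T : Subgroup G) = (⊤ : Subgroup (UT E)).map ((𝐂₁ s).subtype.comp N.u) := by
    rw [← e1, ← map_map, MonoidHom.range_eq_map]
  have n1 : ♯(T : Subgroup G) = q ^ 3 := by
    rw [e2, card_map_of_injective ui, card_top, UT.card hE hs]
  have n2 : ♯(Q0 (T : Subgroup G)) = q := by
    rw [e2, Q0_map ui, card_map_of_injective ui, ← UT.card_center hE hs]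
    congr 2
    refine le_antisymm ((closure_le _).2 fun x k => (UT.mem_center hE hs).2 (sq_iff.1 k.2))
      fun x k => mem_Q0_of trivial (sq_iff.2 ((UT.mem_center hE hs).1 k))
  have hK := kcyc hR r
  obtain ⟨hQ, ⟨h1, -⟩ | ⟨-, h1, -⟩ | ⟨h1, h4, h3, w, hw, h5, y, hy, h6⟩⟩ := Suz.tri hR Suz.feitZ r st
  · have := card_le_of_le (show (T : Subgroup G) ≤ Q0 T from fun x k => mem_Q0_of k (h1 x k))
    rw [n1, n2] at this
    nlinarith [Nat.pow_lt_pow_right (a := q) (by omega) (show 1 < 3 by norm_num)]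
  · rw [n1, n2] at h1
    exact absurd (Nat.pow_right_injective (by omega) h1) (by norm_num)
  obtain rfl := st.eq_of_cube hR h3
  have H : HC (pt (𝐍 (S : Subgroup G))) t T r' := ⟨hR, r, hK, st, fun _ => sq_mem_Q0 hR r hK hQ h1, h4,
    fun _ => cent_W_le hR Suz.feitZ r st h4⟩
  obtain ⟨F, _, _, _, ⟨M⟩⟩ := exists_field_FM hR r hK (st.invol hR)
  obtain ⟨w, hw⟩ := H.exists_goodW (CF.Hyp.isSolvable_of_odd hR.odd_card)
    (ne_bot_of_mem ⟨hw, mem_cent.2 fun u hu => h5 u (Q0_le hu) ((mem_Q0 hR r).1 hu).2⟩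
      fun e => h6 (by simp [e]))
  obtain ⟨τ, _, π, hτ, P, h3⟩ := H.exists_PC M hw
  obtain ⟨L⟩ := P.exists_MC H hτ hw h3
  have hF := M.card_F.trans n2
  have φ : E ≃+* QE τ := FiniteField.ringEquivOfCardEq (by rw [FusB.card_QE, hF, hE])
  have L' := mcMap φ (fun x => by rw [hs, FusB.star_QE, hF, map_pow]) L
  have w1 : ∀ d ∈ DD (pt (𝐍 (S : Subgroup G))) t, r' * d = d * r' →
      ∃ c : Mu E, ∀ x, d * L'.u x * d⁻¹ = L'.u ((c : Eˣ) • x) := fun d hd k =>
    scal L' hR ex hd ((st.V_iff hR hd).2 k) fun x hx k' =>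
      cen hC is k' (invol_central hR r st.s_mem st.s_sq hx).symm k.symm
  have fr := fr_std hE hs
  refine iso L' hR fr (uTransSub_eq_suSub fr.hH fr.hB (by simp) (Or.inl ⟨c₀, (hs _).trans c1, c2, c3⟩))
    r (fun d hd k => w1 d hd ((st.V_iff hR hd).1 k)) ?_
  choose u hu d hd e using fun c : Mu E =>
    decomp hR (mem_H_of_comm hR st.s_mem st.s_ne (mem_cent1.1 (N.d c).2))
  choose χ hχ using fun c => w1 _ (hd c) (by
    have k1 := mem_cent1.1 (N.d c).2
    rw [← e, mul_assoc, ← mul_assoc r', invol_central hR r st.s_mem st.s_sq (hu c), mul_assoc] at k1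
    exact (mul_left_cancel k1).symm)
  have inj : Function.Injective χ := fun c c' k => by
    have k1 : (d c)⁻¹ * d c' = 1 := eq_one_of_cent hR (mul_mem (inv_mem (hd c)) (hd c'))
      (mem_cent.2 fun x hx => by
        obtain ⟨x, rfl⟩ := L'.surj x hx
        have := (hχ c x).trans (k ▸ (hχ c' x).symm)
        calc _ = (d c)⁻¹ * (d c * L'.u x * (d c)⁻¹) * d c' := by group
          _ = _ := by rw [this]; group)
    have k2 : ((N.d (c' * c⁻¹) : 𝐂₁ r') : G) ∈ (T : Subgroup G) := by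
      rw [map_mul, map_inv, Subgroup.coe_mul, InvMemClass.coe_inv, ← e, ← e, inv_mul_eq_one.1 k1]
      simpa using mul_mem (hu c') (inv_mem (hu c))
    rw [← e1] at k2
    obtain ⟨_, ⟨x, rfl⟩, k3⟩ := k2
    exact (mul_inv_eq_one.1 (N.inj x⁻¹ _ (by rw [map_inv, ← Subtype.ext k3, inv_mul_cancel])).2).symm
  intro c
  obtain ⟨c, rfl⟩ := Finite.surjective_of_injective inj c
  exact ⟨_, hd c, hχ c⟩

end

end CF.Bender.PU
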